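import Cfsg.Agent.H46.MSChev
import Cfsg.Agent.H934.HeisE6
import Cfsg.Agent.H867.MinIdx
import Cfsg.Agent.H244.G2.Main

/-!
# Proper subgroups of `E₆(2)` have index at least `14336` (helper501, for S3507)

The special group `Q = 2^(1+20)` of the highest root and the Levi complement of type `A₅`: the root elements of the
complement lie in subgroups `SL₃(2)`, which act trivially on at most six points. So every proper overgroup of `Q` in
`Q L` has index at least `7`, and the index bound of `HeisData` gives `7 * 2 ^ 11`.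
-/

set_option autoImplicit false

namespace Cfsg.Agent.H501.TwoCyc.IdxE6

open Cfsg.Lie Cfsg.Agent.ChevalleyStructure Cfsg.Agent.ChevalleyStructure.Elts Cfsg.Agent.H934.HeisRoot
  Cfsg.Agent.H934.HeisChev Cfsg.Agent.H46.MS Cfsg.Agent.H867.MinIdx Cfsg.Agent.H934.HeisE6

universe u

/-- `SL₃(2)` acts trivially on at most six points. -/
theorem mi_sl32 : MI (Matrix.SpecialLinearGroup (Fin 3) (ZMod 2)) 7 := by
  intro m hm f x
  have hs := Cfsg.Agent.H244.G2.simple_sl32
  rcases (inferInstance : f.ker.Normal).eq_bot_or_eq_top with h | h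
  · exfalso
    -- an element of order seven
    let g : Matrix.SpecialLinearGroup (Fin 3) (ZMod 2) := ⟨!![0, 0, 1; 1, 0, 1; 0, 1, 0], by decide⟩
    have hg7 : g ^ 7 = 1 := by decide
    have hg1 : g ≠ 1 := by
      intro h
      have h1 := congrArg (fun A : Matrix.SpecialLinearGroup (Fin 3) (ZMod 2) => (A : Matrix (Fin 3) (Fin 3) (ZMod 2)) 0 0) h
      revert h1
      decide
    have h1 : (f g) ^ 7 = 1 := by rw [← map_pow, hg7, map_one]
    have h2 : (f g) ^ (m.factorial) = 1 := by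
      have h3 := pow_card_eq_one (G := Equiv.Perm (Fin m)) (x := f g)
      rwa [Fintype.card_perm, Fintype.card_fin] at h3
    have h3 : (f g) ^ (Nat.gcd 7 m.factorial) = 1 := pow_gcd_eq_one.2 ⟨h1, h2⟩
    have h4 : Nat.gcd 7 m.factorial = 1 := by
      rw [← Nat.coprime_iff_gcd_eq_one, Nat.Prime.coprime_iff_not_dvd (by norm_num),
        (by norm_num : Nat.Prime 7).dvd_factorial]
      omega
    rw [h4, pow_one] at h3
    have h5 : g ∈ f.ker := h3
    rw [h, Subgroup.mem_bot] at h5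
    exact hg1 h5
  · have h1 : x ∈ f.ker := by rw [h]; exact Subgroup.mem_top x
    exact h1

theorem a2_0 : IsA2 chevE6 33 36 34 := ⟨by decide +kernel, by decide +kernel, by decide +kernel, by decide +kernel⟩
theorem a2_1 : IsA2 chevE6 28 39 29 := ⟨by decide +kernel, by decide +kernel, by decide +kernel, by decide +kernel⟩
theorem a2_2 : IsA2 chevE6 14 42 15 := ⟨by decide +kernel, by decide +kernel, by decide +kernel, by decide +kernel⟩

/-- the indices of the root elements of the complement -/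
def BL : List ℕ := [56, 42, 39, 37, 36, 15, 29, 32, 34, 35]

theorem B_mem : ∀ β : Fin 10, tab.B β ∈ BL := by decide +kernel

theorem exists_B : ∀ r ∈ BL, ∃ β : Fin 10, tab.B β = r := by decide +kernel

theorem B_in : ∀ β : Fin 10, ∃ i j : Fin 3, i ≠ j ∧ (rt chevE6 33 36 34 i j = tab.B β ∨
    rt chevE6 28 39 29 i j = tab.B β ∨ rt chevE6 14 42 15 i j = tab.B β) := by decide +kernel

variable {F : Type u} [Field F]

section

variable {a b c : ℕ} (S : Subgroup (GL chevE6.Idx F)) (f : ZMod 2 →+* F)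

open scoped commutatorElement in
/-- a subsystem of type `A₂`: all root elements are in `S`, if those of `± b`, `± c` are -/
theorem rx_mem (h : IsA2 chevE6 a b c)
    (hS : ∀ i j : Fin 3, i ≠ j → ¬ (i = 0 ∧ j = 1) → ¬ (i = 1 ∧ j = 0) → ∀ t : ZMod 2, rx hD f a b c i j t ∈ S)
    (i j : Fin 3) (hij : i ≠ j) (t : ZMod 2) : rx hD f a b c i j t ∈ S := by
  have hst := rx_stein hD f h
  have hcm : ∀ {x y : GL chevE6.Idx F}, x ∈ S → y ∈ S → ⁅x, y⁆ ∈ S := by
    intro x y hx hy
    rw [commutatorElement_def]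
    exact mul_mem (mul_mem (mul_mem hx hy) (inv_mem hx)) (inv_mem hy)
  by_cases h1 : i = 0 ∧ j = 1
  · obtain ⟨rfl, rfl⟩ := h1
    have h2 := hst.br 0 2 1 (by decide) (by decide) (by decide) t 1
    rw [mul_one] at h2
    rw [← h2]
    exact hcm (hS 0 2 (by decide) (by decide) (by decide) t) (hS 2 1 (by decide) (by decide) (by decide) 1)
  · by_cases h2 : i = 1 ∧ j = 0
    · obtain ⟨rfl, rfl⟩ := h2
      have h3 := hst.br 1 2 0 (by decide) (by decide) (by decide) t 1
      rw [mul_one] at h3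
      rw [← h3]
      exact hcm (hS 1 2 (by decide) (by decide) (by decide) t) (hS 2 0 (by decide) (by decide) (by decide) 1)
    · exact hS i j hij h1 h2 t

/-- the elements of the subsystem act trivially on at most six points -/
theorem fix_of_a2 (h : IsA2 chevE6 a b c)
    (hS : ∀ i j : Fin 3, i ≠ j → ¬ (i = 0 ∧ j = 1) → ¬ (i = 1 ∧ j = 0) → ∀ t : ZMod 2, rx hD f a b c i j t ∈ S)
    (M : Subgroup S) [M.FiniteIndex] (hM : M.index < 7) (i j : Fin 3) (hij : i ≠ j) (t : ZMod 2) :
    (⟨rx hD f a b c i j t, rx_mem S f h hS i j hij t⟩ : S) ∈ M := by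
  obtain ⟨π, h1, h2⟩ := exists_sl_three hD f h
  have hr : ∀ g, π g ∈ S := by
    intro g
    have h3 : π.range ≤ S := by
      rw [h1, Subgroup.closure_le]
      rintro _ ⟨i, j, hij, t, rfl⟩
      exact rx_mem S f h hS i j hij t
    exact h3 ⟨g, rfl⟩
  let π' : Matrix.SpecialLinearGroup (Fin 3) (ZMod 2) →* S := π.codRestrict S hr
  obtain ⟨g, hg⟩ : rx hD f a b c i j t ∈ π.range := by
    rw [h1]
    exact Subgroup.subset_closure ⟨i, j, hij, t, rfl⟩
  let _ : MulAction (Matrix.SpecialLinearGroup (Fin 3) (ZMod 2)) (S ⧸ M) := MulAction.compHom _ π'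
  have h3 := mi_sl32.of_finite (Ω := S ⧸ M) (by
    have : Nat.card (S ⧸ M) = M.index := rfl
    omega) g ((1 : S) : S ⧸ M)
  have h4 : ((π' g * 1 : S) : S ⧸ M) = ((1 : S) : S ⧸ M) := h3
  have h5 := QuotientGroup.eq.1 h4.symm
  rw [inv_one, one_mul, mul_one] at h5
  have h6 : π' g = ⟨rx hD f a b c i j t, rx_mem S f h hS i j hij t⟩ := Subtype.ext hg
  rwa [h6] at h5

end

theorem tab_in : ∀ i j : Fin 3, i ≠ j → ¬ (i = 0 ∧ j = 1) → ¬ (i = 1 ∧ j = 0) →
    rt chevE6 33 36 34 i j ∈ BL ∧ rt chevE6 28 39 29 i j ∈ BL ∧ rt chevE6 14 42 15 i j ∈ BL := by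
  decide +kernel

/-- Overgroups of `Q` in `P`. -/
theorem seven_le [Fintype F] (hF : Fintype.card F = 2) (M : Subgroup (tab.rh hD tab_ok F).toData.Pg)
    (hQ : (tab.rh hD tab_ok F).toData.QQ ≤ M) (hM : M ≠ ⊤) : 7 ≤ M.index := by
  classical
  by_contra hlt
  have : Finite (GL chevE6.Idx F) := inferInstance
  obtain ⟨⟨β, t0⟩, hκ⟩ := (tab.rh hD tab_ok F).toData.exists_not_mem hQ hM
  have hp2 : Fact (Nat.Prime 2) := ⟨Nat.prime_two⟩
  have : CharP F 2 := charP_of_card_eq_prime_pow (f := 1) (by rw [hF, pow_one])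
  set f : ZMod 2 →+* F := ZMod.castHom (dvd_refl 2) F with hf
  have hbij : Function.Bijective f := by
    refine (Fintype.bijective_iff_injective_and_card f).2 ⟨f.injective, ?_⟩
    rw [ZMod.card, hF]
  obtain ⟨t, ht⟩ := hbij.2 t0
  set S : Subgroup (GL chevE6.Idx F) := (tab.rh hD tab_ok F).toData.Pg.map (chevE6.group F).subtype with hS
  have hinj : Function.Injective (chevE6.group F).subtype := Subtype.val_injective
  set e := (tab.rh hD tab_ok F).toData.Pg.equivMapOfInjective (chevE6.group F).subtype hinj with he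
  have hecoe : ∀ x : (tab.rh hD tab_ok F).toData.Pg, ((e x : S) : GL chevE6.Idx F) = ((x : ↥(chevE6.group F)) : GL chevE6.Idx F) :=
    fun x => rfl
  have hBS : ∀ r ∈ BL, ∀ s : F, xG hD r s ∈ S := by
    intro r hr s
    obtain ⟨γ, rfl⟩ := exists_B r hr
    exact ⟨xe hD (tab.B γ) s, (tab.rh hD tab_ok F).toData.y_mem (γ, s), rfl⟩
  have hidx : (M.map e.toMonoidHom).index = M.index := Subgroup.index_map_of_bijective (f := e.toMonoidHom) e.bijective M
  have hlt' : (M.map e.toMonoidHom).index < 7 := by omega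
  have : Finite S := inferInstance
  have hfi : (M.map e.toMonoidHom).FiniteIndex := inferInstance
  have key : ∀ x : (tab.rh hD tab_ok F).toData.Pg, ∀ y : S, y ∈ M.map e.toMonoidHom →
      ((x : ↥(chevE6.group F)) : GL chevE6.Idx F) = (y : GL chevE6.Idx F) → x ∈ M := by
    rintro x _ ⟨m, hm, rfl⟩ hxy
    have : x = m := by
      apply Subtype.ext
      apply Subtype.ext
      rw [hxy]
      rfl
    rw [this]
    exact hm
  apply hκ
  obtain ⟨i, j, hij, hB⟩ := B_in β
  have hval : ∀ r, r = tab.B β → xG hD r (f t) = ((⟨(tab.rh hD tab_ok F).toData.y (β, t0),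
      (tab.rh hD tab_ok F).toData.y_mem (β, t0)⟩ : (tab.rh hD tab_ok F).toData.Pg) : ↥(chevE6.group F)) := by
    rintro r rfl
    rw [ht]
    rfl
  rcases hB with h | h | h
  · exact key _ _ (fix_of_a2 S f a2_0 (fun i j h1 h2 h3 t => hBS _ (tab_in i j h1 h2 h3).1 _) _ hlt' i j hij t)
      (hval _ h).symm
  · exact key _ _ (fix_of_a2 S f a2_1 (fun i j h1 h2 h3 t => hBS _ (tab_in i j h1 h2 h3).2.1 _) _ hlt' i j hij t)
      (hval _ h).symm
  · exact key _ _ (fix_of_a2 S f a2_2 (fun i j h1 h2 h3 t => hBS _ (tab_in i j h1 h2 h3).2.2 _) _ hlt' i j hij t)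
      (hval _ h).symm

/-- **The index bound for `E₆(2)`.** -/
theorem le_index [Fintype F] (hF : Fintype.card F = 2) (hs : IsSimpleGroup ↥(chevE6.group F))
    (H : Subgroup ↥(chevE6.group F)) (hH : H ≠ ⊤) : 14336 ≤ H.index := by
  classical
  have : Finite (GL chevE6.Idx F) := inferInstance
  have : Nonempty (Fin 20) := ⟨0⟩
  obtain ⟨c, -, -, h⟩ := (tab.rh hD tab_ok F).toData.index_bound (MonoidHom.id ↥(chevE6.group F)) hH (a0 := 1)
    (fun a b ha hb => z_isConj hD tab tab_ok a b ha hb)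
    (fun h => one_ne_zero (xe_eq_one hD tab_ok.th_lt h)) 7 (fun M hQ hM => seven_le hF M hQ hM)
  rw [Nat.card_fun, Nat.card_eq_fintype_card (α := F), Nat.card_eq_fintype_card (α := Fin 20), Fintype.card_fin, hF] at h
  rcases h with h | h
  · exact le_trans (by norm_num) (h.trans (Nat.sub_le _ _))
  · have h1 : (14336 : ℕ) ^ 2 ≤ (H.index - c) ^ 2 := le_trans (by norm_num) h
    have h2 := (Nat.pow_le_pow_iff_left (by norm_num)).1 h1
    omega

end Cfsg.Agent.H501.TwoCyc.IdxE6
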