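import Cfsg.Agent.H934.HeisE6

/-!
# Proper subgroups of `E₆(3)` have index at least `3 ^ 12` (helper501, for S3507)

The complement of the special group of the highest root is generated by elements of order `p`, so its proper subgroups
have index at least `p`.
-/

set_option autoImplicit false

namespace Cfsg.Agent.H501.TwoCyc.IdxE6Three

open Cfsg.Lie Cfsg.Agent.ChevalleyStructure.Elts Cfsg.Agent.H934.HeisRoot Cfsg.Agent.H934.HeisChev
  Cfsg.Agent.H934.HeisE6 MulAction

universe u

/-- an element of order `p` lies in all subgroups of index less than `p` -/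
theorem mem_of_pow {G : Type u} [Group G] {p : ℕ} (hp : p.Prime) {M : Subgroup G} [M.FiniteIndex] (hM : M.index < p)
    {x : G} (hx : x ^ p = 1) : x ∈ M := by
  classical
  have : Fintype (G ⧸ M) := Fintype.ofFinite _
  let f : G →* Equiv.Perm (G ⧸ M) := toPermHom G (G ⧸ M)
  have h1 : (f x) ^ p = 1 := by rw [← map_pow, hx, map_one]
  have h2 : (f x) ^ (M.index.factorial) = 1 := by
    have h3 := pow_card_eq_one (G := Equiv.Perm (G ⧸ M)) (x := f x)
    rw [Fintype.card_perm, ← Nat.card_eq_fintype_card] at h3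
    exact h3
  have h3 : (f x) ^ (Nat.gcd p M.index.factorial) = 1 := pow_gcd_eq_one.2 ⟨h1, h2⟩
  have h4 : Nat.gcd p M.index.factorial = 1 := by
    rw [← Nat.coprime_iff_gcd_eq_one, Nat.Prime.coprime_iff_not_dvd hp, hp.dvd_factorial]
    omega
  rw [h4, pow_one] at h3
  have h5 : x • ((1 : G) : G ⧸ M) = ((1 : G) : G ⧸ M) := congrArg (fun σ : Equiv.Perm (G ⧸ M) => σ ((1 : G) : G ⧸ M)) h3
  have h6 : ((x * 1 : G) : G ⧸ M) = ((1 : G) : G ⧸ M) := h5
  have h7 := QuotientGroup.eq.1 h6.symm
  rwa [inv_one, one_mul, mul_one] at h7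

variable {F : Type u} [Field F]

theorem xe_pow {D : ChevalleyDatum} (hD : InList D) (r : ℕ) (t : F) (n : ℕ) : xe hD r t ^ n = xe hD r (n * t) := by
  induction n with
  | zero => rw [pow_zero, Nat.cast_zero, zero_mul, xe_zero]
  | succ n ih =>
    rw [pow_succ, ih, ← xe_add]
    congr 1
    push_cast
    ring

/-- Overgroups of `Q` in `P`. -/
theorem char_le [Fintype F] {p : ℕ} [hp : Fact p.Prime] [CharP F p] (M : Subgroup (tab.rh hD tab_ok F).toData.Pg)
    (hQ : (tab.rh hD tab_ok F).toData.QQ ≤ M) (hM : M ≠ ⊤) : p ≤ M.index := by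
  classical
  by_contra hlt
  have : Finite (GL chevE6.Idx F) := inferInstance
  obtain ⟨⟨β, t0⟩, hκ⟩ := (tab.rh hD tab_ok F).toData.exists_not_mem hQ hM
  apply hκ
  refine mem_of_pow hp.out (not_le.1 hlt) ?_
  apply Subtype.ext
  show (xe hD (tab.B β) t0) ^ p = 1
  rw [xe_pow, CharP.cast_eq_zero, zero_mul, xe_zero]

/-- **The index bound `p q ^ 11` for `E₆(q)`.** -/
theorem le_index [Fintype F] {p : ℕ} [hp : Fact p.Prime] [CharP F p] (hs : IsSimpleGroup ↥(chevE6.group F))
    (H : Subgroup ↥(chevE6.group F)) (hH : H ≠ ⊤) : p * Fintype.card F ^ 11 ≤ H.index := by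
  classical
  have : Finite (GL chevE6.Idx F) := inferInstance
  have : Nonempty (Fin 20) := ⟨0⟩
  obtain ⟨c, -, -, h⟩ := (tab.rh hD tab_ok F).toData.index_bound (MonoidHom.id ↥(chevE6.group F)) hH (a0 := 1)
    (fun a b ha hb => z_isConj hD tab tab_ok a b ha hb)
    (fun h => one_ne_zero (xe_eq_one hD tab_ok.th_lt h)) p (fun M hQ hM => char_le M hQ hM)
  rw [Nat.card_fun, Nat.card_eq_fintype_card (α := F), Nat.card_eq_fintype_card (α := Fin 20), Fintype.card_fin] at h
  have hpq : p ≤ Fintype.card F := by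
    obtain ⟨n, -, hn⟩ := FiniteField.card F p
    rw [hn]
    exact Nat.le_self_pow n.2.ne' p
  have hq : 0 < Fintype.card F := Fintype.card_pos
  rcases h with h | h
  · refine le_trans ?_ (h.trans (Nat.sub_le _ _))
    calc p * Fintype.card F ^ 11 ≤ Fintype.card F * Fintype.card F ^ 11 := Nat.mul_le_mul_right _ hpq
      _ = Fintype.card F ^ 12 := by ring
      _ ≤ Fintype.card F ^ 21 := Nat.pow_le_pow_right hq (by norm_num)
      _ = _ := by ring
  · have h1 : (p * Fintype.card F ^ 11) ^ 2 ≤ (H.index - c) ^ 2 := by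
      calc (p * Fintype.card F ^ 11) ^ 2 = p ^ 2 * (Fintype.card F * (Fintype.card F ^ 20 * Fintype.card F)) := by ring
        _ ≤ _ := h
    have h2 := (Nat.pow_le_pow_iff_left (by norm_num)).1 h1
    omega

end Cfsg.Agent.H501.TwoCyc.IdxE6Three
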