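import Cfsg.Agent.H92.TorExp
import Cfsg.Agent.H365.Zsig
import Cfsg.Agent.H384.Cyc.Tools

/-!
# Orders of the automorphisms of `D.group F` (helper501, for S3507)

* `orderOf_le_mul` : `|g| ≤ A B`, if `p'`-elements have order at most `A` and `p`-elements order at most `B`;
* `mo` : `Mo T (c * (A * B))`, if `|Out T| ≤ c`;
* `semisimple_le` : `|s| ≤ (q + 1) ^ l` for `s ∈ D.group F` of order prime to the characteristic;
* `semisimple_le_E6_2` : `|s| ≤ 217` for `E₆(2)`;
* `exists_pow` : some power of `p` is at least `h` and at most `h p`.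
-/

set_option autoImplicit false

namespace Cfsg.Agent.H501.TwoCyc.Ord

open Cfsg Cfsg.Lie Cfsg.Agent.H384.Cyc Polynomial Cfsg.Agent.Nodes.RGDChev

universe u v

theorem orderOf_le_mul {G : Type u} [Group G] [Finite G] {p : ℕ} [hp : Fact p.Prime] {A B : ℕ}
    (hA : ∀ x : G, (orderOf x).Coprime p → orderOf x ≤ A) (hB : ∀ x : G, (∃ k, orderOf x = p ^ k) → orderOf x ≤ B)
    (g : G) : orderOf g ≤ A * B := by
  have hg : orderOf g ≠ 0 := (orderOf_pos g).ne'
  obtain ⟨a, b, hb, hab⟩ := Nat.exists_eq_pow_mul_and_not_dvd hg p hp.out.ne_one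
  have hpa : 0 < p ^ a := pow_pos hp.out.pos _
  have hb0 : b ≠ 0 := by
    rintro rfl
    exact hb (dvd_zero _)
  have h1 : orderOf (g ^ p ^ a) = b := by
    rw [orderOf_pow, hab, Nat.gcd_eq_right (dvd_mul_right _ _), Nat.mul_div_cancel_left _ hpa]
  have h2 : orderOf (g ^ b) = p ^ a := by
    rw [orderOf_pow, hab, Nat.gcd_eq_right (dvd_mul_left _ _), Nat.mul_div_cancel _ (Nat.pos_of_ne_zero hb0)]
  have h3 := hA (g ^ p ^ a) (by
    rw [h1]
    exact ((Nat.Prime.coprime_iff_not_dvd hp.out).2 hb).symm)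
  have h4 := hB (g ^ b) ⟨a, h2⟩
  rw [h1] at h3
  rw [h2] at h4
  rw [hab, mul_comm]
  exact Nat.mul_le_mul h3 h4

theorem mo {T : Type u} [Group T] [Finite T] {p : ℕ} [hp : Fact p.Prime] {A B c : ℕ}
    (hc : Nat.card (Cfsg.Out T) ≤ c) (hA : ∀ x : T, (orderOf x).Coprime p → orderOf x ≤ A)
    (hB : ∀ x : T, (∃ k, orderOf x = p ^ k) → orderOf x ≤ B) : Mo T (c * (A * B)) := by
  have hN : (MulAut.conj : T →* MulAut T).range.Normal := by
    constructor
    rintro _ ⟨t, rfl⟩ α
    refine ⟨α t, ?_⟩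
    ext g
    simp
  refine mo_of_index (MulAut.conj : T →* MulAut T).range hc ?_
  rintro _ ⟨t, rfl⟩
  have h1 : orderOf (MulAut.conj t) ≤ orderOf t :=
    Nat.le_of_dvd (orderOf_pos t) (orderOf_map_dvd (MulAut.conj : T →* MulAut T) t)
  exact h1.trans (orderOf_le_mul hA hB t)

/-- `|s| ≤ (q + 1) ^ l` -/
theorem semisimple_le {D : ChevalleyDatum} {l : ℕ} {M : CoxeterMatrix (Fin l)} (hp : IsType D l M) {F : Type u} [Field F]
    [Fintype F] {r : ℕ} [Fact r.Prime] [CharP F r] {x : ↥(D.group F)} (hx : (orderOf x).Coprime r) :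
    orderOf x ≤ (Fintype.card F + 1) ^ l := by
  have := finite_W hp M.toCoxeterSystem
  obtain ⟨S, -, h1, h2⟩ := H92.TorExp.ord_untw hp M.toCoxeterSystem hx
  have hq : (1 : ℝ) < (Fintype.card F : ℝ) := by exact_mod_cast Fintype.one_lt_card
  have hev : ∀ d : ℕ, (((cyclotomic d ℤ).eval (Fintype.card F : ℤ) : ℤ) : ℝ) =
      (cyclotomic d ℝ).eval (Fintype.card F : ℝ) := by
    intro d
    have h0 : ((Fintype.card F : ℕ) : ℝ) = (((Fintype.card F : ℕ) : ℤ) : ℝ) := by push_cast; rfl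
    rw [← map_cyclotomic_int d ℝ, h0, eval_intCast_map]
    simp
  have hpos : ∀ d : ℕ, 0 < (cyclotomic d ℝ).eval (Fintype.card F : ℝ) := fun d => cyclotomic_pos' d hq
  have h3 : (0 : ℤ) < ∏ d ∈ S, (cyclotomic d ℤ).eval (Fintype.card F : ℤ) := by
    refine Finset.prod_pos fun d _ => ?_
    have := hpos d
    rw [← hev] at this
    exact_mod_cast this
  have h4 := Int.le_of_dvd h3 h2
  have h5 : ((orderOf x : ℕ) : ℝ) ≤ ((Fintype.card F : ℝ) + 1) ^ l := by
    calc ((orderOf x : ℕ) : ℝ) ≤ ((∏ d ∈ S, (cyclotomic d ℤ).eval (Fintype.card F : ℤ) : ℤ) : ℝ) := by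
          exact_mod_cast h4
      _ = ∏ d ∈ S, (cyclotomic d ℝ).eval (Fintype.card F : ℝ) := by
          rw [Int.cast_prod]
          exact Finset.prod_congr rfl fun d _ => hev d
      _ ≤ ∏ d ∈ S, ((Fintype.card F : ℝ) + 1) ^ Nat.totient d := by
          refine Finset.prod_le_prod (fun d _ => (hpos d).le) fun d _ => ?_
          exact cyclotomic_eval_le_add_one_pow_totient hq d
      _ = ((Fintype.card F : ℝ) + 1) ^ (∑ d ∈ S, Nat.totient d) := Finset.prod_pow_eq_pow_sum _ _ _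
      _ ≤ ((Fintype.card F : ℝ) + 1) ^ l := pow_le_pow_right₀ (by linarith) h1
  exact_mod_cast h5

/-- the least power of `p` which is at least `h` -/
theorem exists_pow {p h : ℕ} (hp : 2 ≤ p) (hh : 0 < h) : ∃ k, h ≤ p ^ k ∧ p ^ k ≤ h * p := by
  have h0 : ∃ k, h ≤ p ^ k := ⟨h, (Nat.lt_pow_self hp).le⟩
  classical
  refine ⟨Nat.find h0, Nat.find_spec h0, ?_⟩
  rcases Nat.eq_zero_or_pos (Nat.find h0) with h1 | h1
  · rw [h1, pow_zero]
    nlinarith
  · have h2 := Nat.find_min h0 (m := Nat.find h0 - 1) (by omega)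
    rw [not_le] at h2
    calc p ^ Nat.find h0 = p ^ (Nat.find h0 - 1) * p := by rw [← pow_succ, Nat.sub_add_cancel h1]
      _ ≤ h * p := Nat.mul_le_mul_right _ h2.le

/-! ### products over sets of bounded weight -/

/-- the maximum of `∏_{d ∈ S} v d` over the sublists `S` of `L` with `∑_{d ∈ S} φ(d) ≤ n` -/
def maxp (v : ℕ → ℕ) : List ℕ → ℕ → ℕ
  | [], _ => 1
  | d :: L, n => max (maxp v L n) (if Nat.totient d ≤ n then v d * maxp v L (n - Nat.totient d) else 1)

theorem prod_le_maxp (v : ℕ → ℕ) : ∀ (L : List ℕ) (n : ℕ) (S : Finset ℕ), (∀ d ∈ S, d ∈ L) →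
    ∑ d ∈ S, Nat.totient d ≤ n → ∏ d ∈ S, v d ≤ maxp v L n
  | [], n, S, h1, h2 => by
    have : S = ∅ := Finset.eq_empty_of_forall_notMem fun d hd => by simpa using h1 d hd
    rw [this, Finset.prod_empty]
    exact le_rfl
  | d :: L, n, S, h1, h2 => by
    by_cases hd : d ∈ S
    · have h3 := Finset.sum_erase_add S Nat.totient hd
      have h4 := Finset.prod_erase_mul S v hd
      have h5 : Nat.totient d ≤ n := by omega
      refine le_trans ?_ (le_max_right _ _)
      rw [if_pos h5, ← h4, mul_comm]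
      refine Nat.mul_le_mul_left _ (prod_le_maxp v L _ _ (fun e he => ?_) (by omega))
      rw [Finset.mem_erase] at he
      rcases List.mem_cons.1 (h1 e he.2) with h6 | h6
      · exact absurd h6 he.1
      · exact h6
    · refine le_trans (prod_le_maxp v L n S (fun e he => ?_) h2) (le_max_left _ _)
      rcases List.mem_cons.1 (h1 e he) with h6 | h6
      · rw [h6] at he
        exact absurd he hd
      · exact h6

/-! ### `q = 2`, `l = 6` -/

/-- the values `Φ_d(2)`, `φ(d) ≤ 6` -/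
def cv (d : ℕ) : ℕ :=
  if d = 2 then 3 else if d = 3 then 7 else if d = 4 then 5 else if d = 5 then 31 else if d = 6 then 3 else
  if d = 7 then 127 else if d = 8 then 17 else if d = 9 then 73 else if d = 10 then 11 else if d = 12 then 13 else
  if d = 14 then 43 else if d = 18 then 57 else 1

/-- the indices with `φ(d) ≤ 6` -/
def TT6 : List ℕ := [1, 2, 3, 4, 5, 6, 7, 8, 9, 10, 12, 14, 18]

theorem cv_pos : ∀ d ∈ TT6, 0 < cv d := by decide +kernel

theorem small : maxp cv TT6 6 = 217 := by decide +kernel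

theorem mem_TT6 : ∀ d < 73, 0 < d → Nat.totient d ≤ 6 → d ∈ TT6 := by decide +kernel

theorem prod_eval (n : ℕ) (hn : 0 < n) : ∏ i ∈ Nat.divisors n, (cyclotomic i ℤ).eval 2 = 2 ^ n - 1 := by
  rw [← eval_prod, prod_cyclotomic_eq_X_pow_sub_one hn]
  simp

theorem cv_eq : ∀ d ∈ TT6, (cyclotomic d ℤ).eval 2 = (cv d : ℤ) := by
  have e1 : (cyclotomic 1 ℤ).eval 2 = 1 := by rw [cyclotomic_one]; norm_num
  have e2 : (cyclotomic 2 ℤ).eval 2 = 3 := by rw [cyclotomic_two]; norm_num
  have e3 : (cyclotomic 3 ℤ).eval 2 = 7 := by rw [cyclotomic_three]; norm_num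
  have e4 : (cyclotomic 4 ℤ).eval 2 = 5 := by
    have h := prod_eval 4 (by norm_num)
    rw [show Nat.divisors 4 = {1, 2, 4} by decide] at h
    simp [Finset.prod_insert] at h
    omega
  have e5 : (cyclotomic 5 ℤ).eval 2 = 31 := by
    have h := prod_eval 5 (by norm_num)
    rw [show Nat.divisors 5 = {1, 5} by decide] at h
    simp [Finset.prod_insert] at h
    omega
  have e6 : (cyclotomic 6 ℤ).eval 2 = 3 := by rw [cyclotomic_six]; norm_num
  have e7 : (cyclotomic 7 ℤ).eval 2 = 127 := by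
    have h := prod_eval 7 (by norm_num)
    rw [show Nat.divisors 7 = {1, 7} by decide] at h
    simp [Finset.prod_insert] at h
    omega
  have e8 : (cyclotomic 8 ℤ).eval 2 = 17 := by
    have h := prod_eval 8 (by norm_num)
    rw [show Nat.divisors 8 = {1, 2, 4, 8} by decide] at h
    simp [e4, Finset.prod_insert] at h
    omega
  have e9 : (cyclotomic 9 ℤ).eval 2 = 73 := by
    have h := prod_eval 9 (by norm_num)
    rw [show Nat.divisors 9 = {1, 3, 9} by decide] at h
    simp [Finset.prod_insert] at h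
    omega
  have e10 : (cyclotomic 10 ℤ).eval 2 = 11 := by
    have h := prod_eval 10 (by norm_num)
    rw [show Nat.divisors 10 = {1, 2, 5, 10} by decide] at h
    simp [e5, Finset.prod_insert] at h
    omega
  have e12 : (cyclotomic 12 ℤ).eval 2 = 13 := by
    have h := prod_eval 12 (by norm_num)
    rw [show Nat.divisors 12 = {1, 2, 3, 4, 6, 12} by decide] at h
    simp [e4, Finset.prod_insert] at h
    omega
  have e14 : (cyclotomic 14 ℤ).eval 2 = 43 := by
    have h := prod_eval 14 (by norm_num)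
    rw [show Nat.divisors 14 = {1, 2, 7, 14} by decide] at h
    simp [e7, Finset.prod_insert] at h
    omega
  have e18 : (cyclotomic 18 ℤ).eval 2 = 57 := by
    have h := prod_eval 18 (by norm_num)
    rw [show Nat.divisors 18 = {1, 2, 3, 6, 9, 18} by decide] at h
    simp [e9, Finset.prod_insert] at h
    omega
  intro d hd
  simp only [TT6, List.mem_cons, List.not_mem_nil, or_false] at hd
  rcases hd with rfl | rfl | rfl | rfl | rfl | rfl | rfl | rfl | rfl | rfl | rfl | rfl | rfl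
  · exact e1
  · exact e2
  · exact e3
  · exact e4
  · exact e5
  · exact e6
  · exact e7
  · exact e8
  · exact e9
  · exact e10
  · exact e12
  · exact e14
  · exact e18

/-- rank `6` over the field with two elements -/
theorem semisimple_le_two {D : ChevalleyDatum} {M : CoxeterMatrix (Fin 6)} (hp : IsType D 6 M) {F : Type u} [Field F]
    [Fintype F] (hF : Fintype.card F = 2) [CharP F 2] {x : ↥(D.group F)} (hx : (orderOf x).Coprime 2) :
    orderOf x ≤ 217 := by
  have hp2 : Fact (Nat.Prime 2) := ⟨Nat.prime_two⟩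
  have := finite_W hp M.toCoxeterSystem
  obtain ⟨S, h0, h1, h2⟩ := H92.TorExp.ord_untw hp M.toCoxeterSystem hx
  have hS : ∀ d ∈ S, d ∈ TT6 := by
    intro d hd
    have h3 : Nat.totient d ≤ 6 := (Finset.single_le_sum (f := Nat.totient) (fun _ _ => Nat.zero_le _) hd).trans h1
    have h4 := H365.Zsig.le_two_mul_totient_sq (h0 d hd)
    have h5 : Nat.totient d ^ 2 ≤ 6 ^ 2 := Nat.pow_le_pow_left h3 2
    exact mem_TT6 d (by omega) (h0 d hd) h3
  rw [hF] at h2
  have h3 : ∏ d ∈ S, (cyclotomic d ℤ).eval ((2 : ℕ) : ℤ) = ((∏ d ∈ S, cv d : ℕ) : ℤ) := by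
    push_cast
    exact Finset.prod_congr rfl fun d hd => cv_eq d (hS d hd)
  rw [h3] at h2
  have h4 : orderOf x ∣ ∏ d ∈ S, cv d := Int.natCast_dvd_natCast.1 h2
  have h5 : 0 < ∏ d ∈ S, cv d := Finset.prod_pos fun d hd => cv_pos d (hS d hd)
  calc orderOf x ≤ ∏ d ∈ S, cv d := Nat.le_of_dvd h5 h4
    _ ≤ maxp cv TT6 6 := prod_le_maxp cv TT6 6 S hS h1
    _ = 217 := small

end Cfsg.Agent.H501.TwoCyc.Ord
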