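import Cfsg.Agent.H501.TwoCyc.Ord
import Cfsg.Agent.H501.TwoCyc.IdxE6
import Cfsg.Agent.H501.TwoCyc.IdxE6Three
import Cfsg.Agent.H934.HeisE7
import Cfsg.Agent.H934.HeisE8
import Cfsg.Agent.S2123
import Cfsg.Agent.S2124
import Cfsg.Agent.S2125

/-!
# `Sm` for `E₈(q)`, `E₇(q)`, `E₆(q)` (helper501, for S3507)

`UB T p h` : the order of a `p`-element of `T` divides every power of `p` which is at least `h` (`h` = Coxeter number).
-/

set_option autoImplicit false

namespace Cfsg.Agent.H501.TwoCyc.RowsOf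

open Cfsg Cfsg.Lie Cfsg.Agent.H384.Cyc Cfsg.Agent.Nodes.RGDChev Cfsg.Agent.H501.TwoCyc.Ord

universe u v

/-- bound for the orders of the `p`-elements -/
def UB (T : Type u) [Group T] (p h : ℕ) : Prop :=
  ∀ x : T, (∃ j, orderOf x = p ^ j) → ∀ k, h ≤ p ^ k → x ^ p ^ k = 1

theorem UB.le {T : Type u} [Group T] {p h : ℕ} (hU : UB T p h) {k : ℕ} (hp : 0 < p) (hk : h ≤ p ^ k) (x : T)
    (hx : ∃ j, orderOf x = p ^ j) : orderOf x ≤ p ^ k :=
  Nat.le_of_dvd (pow_pos hp _) (orderOf_dvd_of_pow_eq_one (hU x hx k hk))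

theorem two_mul_le_pow {p f : ℕ} (hp : 2 ≤ p) (hf : 0 < f) : 2 * f ≤ p ^ f := by
  calc 2 * f ≤ 2 ^ f := by
        induction f with
        | zero => omega
        | succ n ih =>
          rcases Nat.eq_zero_or_pos n with h | h
          · subst h; norm_num
          · have := ih h
            rw [pow_succ]
            omega
    _ ≤ p ^ f := Nat.pow_le_pow_left hp f

theorem pow_inj' {p a b : ℕ} (hp : 2 ≤ p) (h : p ^ a = p ^ b) : a = b := Nat.pow_right_injective hp h

theorem le_pow_self {p f : ℕ} (hf : 0 < f) : p ≤ p ^ f := Nat.le_self_pow hf.ne' p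

theorem t8 : IsType chevE8 8 CoxeterMatrix.E₈ := by simp [IsType, typeList]
theorem t7 : IsType chevE7 7 CoxeterMatrix.E₇ := by simp [IsType, typeList]
theorem t6 : IsType chevE6 6 CoxeterMatrix.E₆ := by simp [IsType, typeList]

variable {F : Type u} [Field F] [Fintype F] {p : ℕ} [hp : Fact p.Prime] [CharP F p]

/-- `E₈(q)` -/
theorem sm_e8 (hs : IsSimpleGroup ↥(chevE8.group F)) (hU : UB ↥(chevE8.group F) p 30) : Sm ↥(chevE8.group F) := by
  have : Finite (GL chevE8.Idx F) := inferInstance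
  obtain ⟨f, hf, hF⟩ := FiniteField.card F p
  obtain ⟨f, hf0⟩ := f
  have hF' : Fintype.card F = p ^ f := hF
  have hout := Cfsg.Agent.S2125.result p f hF'
  obtain ⟨k, hk1, hk2⟩ := exists_pow (h := 30) hp.out.two_le (by norm_num)
  refine ⟨_, mo hout.le (fun x hx => semisimple_le t8 hx) (fun x hx => hU.le hp.out.pos hk1 x hx), fun H hH => ?_⟩
  refine lt_of_lt_of_le ?_ (Cfsg.Agent.H934.HeisE8.two_mul_le hs H hH)
  have h1 := two_mul_le_pow hp.out.two_le hf0
  have h2 : p ≤ p ^ f := le_pow_self hf0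
  rw [← hF'] at h1 h2
  have hq : 2 ≤ Fintype.card F := Fintype.one_lt_card
  generalize Fintype.card F = q at *
  have h3 : f ≤ q := by omega
  have h4 : (q + 1) ^ 8 ≤ (2 * q) ^ 8 := Nat.pow_le_pow_left (by omega) 8
  have h5 : p ^ k ≤ 30 * q := hk2.trans (Nat.mul_le_mul_left _ h2)
  have h6 : f * ((q + 1) ^ 8 * p ^ k) ≤ q * ((2 * q) ^ 8 * (30 * q)) := Nat.mul_le_mul h3 (Nat.mul_le_mul h4 h5)
  have h7 : 2 ^ 19 ≤ q ^ 19 := Nat.pow_le_pow_left hq 19
  have h8 : q * ((2 * q) ^ 8 * (30 * q)) = 7680 * q ^ 10 := by ring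
  have h9 : 0 < q ^ 10 := pow_pos (by omega) _
  have h10 : q ^ 29 = q ^ 19 * q ^ 10 := by ring
  rw [h10]
  nlinarith

/-- `E₇(q)` -/
theorem sm_e7 (hs : IsSimpleGroup ↥(chevE7.group F)) (hU : UB ↥(chevE7.group F) p 18) : Sm ↥(chevE7.group F) := by
  have : Finite (GL chevE7.Idx F) := inferInstance
  obtain ⟨f, hf, hF⟩ := FiniteField.card F p
  obtain ⟨f, hf0⟩ := f
  have hF' : Fintype.card F = p ^ f := hF
  have hout := Cfsg.Agent.S2124.result p f hF'
  have h1 := two_mul_le_pow hp.out.two_le hf0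
  have h2 : p ≤ p ^ f := le_pow_self hf0
  have hq : 2 ≤ Fintype.card F := Fintype.one_lt_card
  rcases Nat.lt_or_ge (Fintype.card F) 3 with h3 | h3
  · -- `q = 2`
    have h4 : Fintype.card F = 2 := by omega
    have h5 : p = 2 := by
      rw [← hF', h4] at h2
      have := hp.out.two_le
      omega
    subst h5
    have h6 : f = 1 := by
      rw [h4] at hF'
      exact pow_inj' le_rfl (by rw [← hF', pow_one])
    subst h6
    rw [show Nat.gcd 2 (2 ^ 1 - 1) * 1 = 1 by norm_num] at hout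
    refine ⟨_, mo hout.le (fun x hx => semisimple_le t7 hx) (fun x hx => hU.le (k := 5) hp.out.pos (by norm_num) x hx),
      fun H hH => ?_⟩
    refine lt_of_lt_of_le ?_ (Cfsg.Agent.H934.HeisE7.two_mul_le hs H hH)
    rw [h4]
    norm_num
  · obtain ⟨k, hk1, hk2⟩ := exists_pow (h := 18) hp.out.two_le (by norm_num)
    have hg : Nat.gcd 2 (p ^ f - 1) * f ≤ 2 * f := Nat.mul_le_mul_right _ (Nat.le_of_dvd (by norm_num) (Nat.gcd_dvd_left _ _))
    refine ⟨_, mo (hout.le.trans hg) (fun x hx => semisimple_le t7 hx) (fun x hx => hU.le hp.out.pos hk1 x hx), fun H hH => ?_⟩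
    refine lt_of_lt_of_le ?_ (Cfsg.Agent.H934.HeisE7.two_mul_le hs H hH)
    rw [← hF'] at h1 h2
    generalize Fintype.card F = q at *
    have h4 : (q + 1) ^ 7 ≤ (2 * q) ^ 7 := Nat.pow_le_pow_left (by omega) 7
    have h5 : p ^ k ≤ 18 * q := hk2.trans (Nat.mul_le_mul_left _ h2)
    have h6 : 2 * f * ((q + 1) ^ 7 * p ^ k) ≤ q * ((2 * q) ^ 7 * (18 * q)) := Nat.mul_le_mul h1 (Nat.mul_le_mul h4 h5)
    have h7 : 3 ^ 8 ≤ q ^ 8 := Nat.pow_le_pow_left h3 8
    have h8 : q * ((2 * q) ^ 7 * (18 * q)) = 2304 * q ^ 9 := by ring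
    have h9 : 0 < q ^ 9 := pow_pos (by omega) _
    have h10 : q ^ 17 = q ^ 8 * q ^ 9 := by ring
    rw [h10]
    nlinarith

/-- `E₆(q)` -/
theorem sm_e6 (hs : IsSimpleGroup ↥(chevE6.group F)) (hU : UB ↥(chevE6.group F) p 12) : Sm ↥(chevE6.group F) := by
  have : Finite (GL chevE6.Idx F) := inferInstance
  obtain ⟨f, hf, hF⟩ := FiniteField.card F p
  obtain ⟨f, hf0⟩ := f
  have hF' : Fintype.card F = p ^ f := hF
  have hout := Cfsg.Agent.S2123.result p f hF'
  have h1 := two_mul_le_pow hp.out.two_le hf0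
  have h2 : p ≤ p ^ f := le_pow_self hf0
  have hq : 2 ≤ Fintype.card F := Fintype.one_lt_card
  have hg : Nat.gcd 3 (p ^ f - 1) ≤ 3 := Nat.le_of_dvd (by norm_num) (Nat.gcd_dvd_left _ _)
  rcases Nat.lt_or_ge (Fintype.card F) 5 with h3 | h3
  · have h4 : Fintype.card F = 2 ∨ Fintype.card F = 3 ∨ Fintype.card F = 4 := by omega
    rcases h4 with h4 | h4 | h4
    · -- `q = 2`
      have h5 : p = 2 := by
        rw [← hF', h4] at h2
        have := hp.out.two_le
        omega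
      subst h5
      have h6 : f = 1 := by
        rw [h4] at hF'
        exact pow_inj' le_rfl (by rw [← hF', pow_one])
      subst h6
      rw [show 2 * Nat.gcd 3 (2 ^ 1 - 1) * 1 = 2 by norm_num] at hout
      refine ⟨_, mo hout.le (fun x hx => semisimple_le_two t6 h4 hx)
        (fun x hx => hU.le (k := 4) hp.out.pos (by norm_num) x hx), fun H hH => ?_⟩
      refine lt_of_lt_of_le ?_ (IdxE6.le_index h4 hs H hH)
      norm_num
    · -- `q = 3`
      have h5 : p = 3 := by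
        have h6 : p ∣ 3 := by
          rw [← h4, hF']
          exact dvd_pow_self p hf0.ne'
        exact (Nat.prime_dvd_prime_iff_eq hp.out Nat.prime_three).1 h6
      subst h5
      have h6 : f = 1 := by
        rw [h4] at hF'
        exact pow_inj' (p := 3) (by norm_num) (by rw [← hF', pow_one])
      subst h6
      rw [show 2 * Nat.gcd 3 (3 ^ 1 - 1) * 1 = 2 by norm_num] at hout
      refine ⟨_, mo hout.le (fun x hx => semisimple_le t6 hx)
        (fun x hx => hU.le (k := 3) hp.out.pos (by norm_num) x hx), fun H hH => ?_⟩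
      refine lt_of_lt_of_le ?_ (IdxE6Three.le_index (p := 3) hs H hH)
      rw [h4]
      norm_num
    · -- `q = 4`
      have h5 : p = 2 := by
        have h6 : p ∣ 2 ^ 2 := by
          rw [show (2 : ℕ) ^ 2 = 4 by norm_num, ← h4, hF']
          exact dvd_pow_self p hf0.ne'
        exact (Nat.prime_dvd_prime_iff_eq hp.out Nat.prime_two).1 (hp.out.dvd_of_dvd_pow h6)
      subst h5
      have h6 : f = 2 := by
        rw [h4] at hF'
        exact pow_inj' le_rfl (by rw [← hF']; norm_num)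
      subst h6
      rw [show 2 * Nat.gcd 3 (2 ^ 2 - 1) * 2 = 12 by norm_num] at hout
      refine ⟨_, mo hout.le (fun x hx => semisimple_le t6 hx)
        (fun x hx => hU.le (k := 4) hp.out.pos (by norm_num) x hx), fun H hH => ?_⟩
      refine lt_of_lt_of_le ?_ (Cfsg.Agent.H934.HeisE6.two_mul_le hs H hH)
      rw [h4]
      norm_num
  · obtain ⟨k, hk1, hk2⟩ := exists_pow (h := 12) hp.out.two_le (by norm_num)
    have hc : 2 * Nat.gcd 3 (p ^ f - 1) * f ≤ 3 * (2 * f) := by nlinarith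
    refine ⟨_, mo (hout.le.trans hc) (fun x hx => semisimple_le t6 hx) (fun x hx => hU.le hp.out.pos hk1 x hx), fun H hH => ?_⟩
    refine lt_of_lt_of_le ?_ (Cfsg.Agent.H934.HeisE6.two_mul_le hs H hH)
    rw [← hF'] at h1 h2
    generalize Fintype.card F = q at *
    have h4 : (5 * (q + 1)) ^ 6 ≤ (6 * q) ^ 6 := Nat.pow_le_pow_left (by omega) 6
    have h5 : p ^ k ≤ 12 * q := hk2.trans (Nat.mul_le_mul_left _ h2)
    have h6 : 3 * (2 * f) * ((5 * (q + 1)) ^ 6 * p ^ k) ≤ 3 * q * ((6 * q) ^ 6 * (12 * q)) :=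
      Nat.mul_le_mul (Nat.mul_le_mul_left _ h1) (Nat.mul_le_mul h4 h5)
    have h7 : 5 ^ 3 ≤ q ^ 3 := Nat.pow_le_pow_left h3 3
    have h8 : 3 * q * ((6 * q) ^ 6 * (12 * q)) = 1679616 * q ^ 8 := by ring
    have h11 : 3 * (2 * f) * ((5 * (q + 1)) ^ 6 * p ^ k) = 15625 * (3 * (2 * f) * ((q + 1) ^ 6 * p ^ k)) := by ring
    have h9 : 0 < q ^ 8 := pow_pos (by omega) _
    have h10 : q ^ 11 = q ^ 3 * q ^ 8 := by ring
    rw [h10]
    rw [h11, h8] at h6
    nlinarith

end Cfsg.Agent.H501.TwoCyc.RowsOf
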